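import Mathlib
import Cfsg.Agent.H410.Co1.Count

/-!
The contradiction in the situation `Sys` for a simple group whose order is one of 5616, 6048, 95040.
-/

set_option autoImplicit false
set_option linter.style.longLine false

namespace Cfsg.Agent.H410.Co1

open Subgroup

variable {K : Type*} [Group K]

/-- orbit lengths: all but one orbit have length divisible by 9 -/
theorem card_mod_nine {G X : Type*} [Group G] [Finite G] [MulAction G X] [Finite X] (x0 : X) (h0 : ∀ g : G, g • x0 = x0)
    (h : ∀ x : X, x ≠ x0 → 9 ∣ Nat.card (MulAction.orbit G x)) : Nat.card X % 9 = 1 := by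
  classical
  have := Fintype.ofFinite X
  have := Fintype.ofFinite G
  have := Fintype.ofFinite (MulAction.orbitRel.Quotient G X)
  have e := Nat.card_congr (MulAction.selfEquivSigmaOrbits G X)
  rw [Nat.card_sigma] at e
  let ω0 : MulAction.orbitRel.Quotient G X := Quotient.mk _ x0
  have hx : ∀ x : X, (Quotient.mk _ x : MulAction.orbitRel.Quotient G X) = ω0 → x = x0 := by
    intro x hx
    have h1 : (MulAction.orbitRel G X) x x0 := Quotient.exact hx
    rw [MulAction.orbitRel_apply] at h1
    obtain ⟨g, hg⟩ := h1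
    rw [← hg]; exact h0 g
  have h0' : ω0.out = x0 := hx _ (Quotient.out_eq _)
  have h1 : Nat.card (MulAction.orbit G ω0.out) = 1 := by
    rw [h0', Nat.card_eq_one_iff_unique]
    refine ⟨⟨?_⟩, ⟨⟨x0, MulAction.mem_orbit_self x0⟩⟩⟩
    rintro ⟨a, g, rfl⟩ ⟨b, g', rfl⟩
    apply Subtype.ext
    show g • x0 = g' • x0
    rw [h0, h0]
  rw [← Finset.add_sum_erase _ _ (Finset.mem_univ ω0), h1] at e
  have h9 : 9 ∣ ∑ x ∈ Finset.univ.erase ω0, Nat.card ↑(MulAction.orbit G (Quotient.out x)) := by
    apply Finset.dvd_sum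
    intro ω hω
    apply h
    intro hc
    apply (Finset.mem_erase.1 hω).1
    rw [← Quotient.out_eq ω, hc]
  omega

namespace Sys

variable {S : Sylow 3 K} {U1 U2 : Subgroup K} {z : K}

/-- `|N(S)| = 27 m` with `m ∈ {1, 2, 4}` -/
theorem card_norm [Finite K] (h : Sys S U1 U2 z) :
    Nat.card (normalizer ((S : Subgroup K) : Set K)) = 27 ∨ Nat.card (normalizer ((S : Subgroup K) : Set K)) = 54 ∨
      Nat.card (normalizer ((S : Subgroup K) : Set K)) = 108 := by
  set N := normalizer ((S : Subgroup K) : Set K) with hN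
  have h1 : Nat.card N ≤ 108 := h.card_norm_le (fun n hn s hs => ((mem_normalizer_iff.1 hn) s).1 hs)
  have hSN : (S : Subgroup K) ≤ N := le_normalizer
  have h2 : (S : Subgroup K).relIndex N * N.index = (S : Subgroup K).index := relIndex_mul_index hSN
  have h3 : Nat.card (S : Subgroup K) * (S : Subgroup K).relIndex N = Nat.card N := by
    have h31 := ((S : Subgroup K).subgroupOf N).card_mul_index
    rw [Nat.card_congr (subgroupOfEquivOfLe hSN).toEquiv] at h31
    exact h31
  rw [h.cardS'] at h3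
  have h4 : ¬ 3 ∣ (S : Subgroup K).relIndex N := by
    intro h5
    have h6 : ¬ 3 ∣ (S : Subgroup K).index := S.not_dvd_index
    apply h6
    rw [← h2]
    exact h5.mul_right _
  have h5 : Nat.card N ≠ 0 := Nat.card_pos.ne'
  generalize (S : Subgroup K).relIndex N = m at *
  have h6 : m ≤ 4 := by omega
  interval_cases m
  · omega
  · left; omega
  · right; left; omega
  · exact absurd (dvd_refl 3) h4
  · right; right; omega

/-- `N(S) ≠ S` if `K` is perfect and `N(S)` controls fusion -/
theorem card_norm_ne [Finite K] (h : Sys S U1 U2 z) (hK : commutator K = ⊤)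
    (hN : ∀ V : Subgroup K, V ≤ S → ∀ g : K, (∀ x ∈ V, g * x * g⁻¹ ∈ S) →
      ∃ n : K, (∀ s ∈ S, n * s * n⁻¹ ∈ S) ∧ ∀ x ∈ V, n * x * n⁻¹ = g * x * g⁻¹) :
    Nat.card (normalizer ((S : Subgroup K) : Set K)) ≠ 27 := by
  intro h27
  have heq : (S : Subgroup K) = normalizer ((S : Subgroup K) : Set K) := by
    apply eq_of_le_of_card_ge le_normalizer
    rw [h27, h.cardS']
  have hfoc := commutator_inf_eq_focalSubgroup S
  rw [hK, top_inf_eq, focalSubgroup_def] at hfoc
  have hle : (S : Subgroup K) ≤ zpowers z := by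
    rw [hfoc, closure_le]
    rintro g ⟨hg, x, hx, u, rfl⟩
    rw [commutatorElement_def] at hg ⊢
    have h1 : u * x⁻¹ * u⁻¹ ∈ S := by
      have h2 := (S : Subgroup K).mul_mem ((S : Subgroup K).inv_mem hx) hg
      have h3 : x⁻¹ * (x * u * x⁻¹ * u⁻¹) = u * x⁻¹ * u⁻¹ := by group
      rwa [h3] at h2
    obtain ⟨n, hn, hn2⟩ := hN (zpowers x⁻¹) (by rw [zpowers_le]; exact (S : Subgroup K).inv_mem hx) u (by
      intro y hy
      obtain ⟨k, rfl⟩ := mem_zpowers_iff.1 hy
      have h4 : u * x⁻¹ ^ k * u⁻¹ = (u * x⁻¹ * u⁻¹) ^ k := by rw [conj_zpow]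
      rw [h4]
      exact (S : Subgroup K).zpow_mem h1 k)
    have hnS : n ∈ (S : Subgroup K) := by
      rw [heq, mem_normalizer_iff]
      intro s
      refine ⟨fun hs => hn s hs, fun hs => ?_⟩
      have h5 := h.norm_inv hn _ hs
      have h6 : n⁻¹ * (n * s * n⁻¹) * n⁻¹⁻¹ = s := by group
      rwa [h6] at h5
    have h7 : x * u * x⁻¹ * u⁻¹ = x * n * x⁻¹ * n⁻¹ := by
      have h8 := hn2 x⁻¹ (mem_zpowers _)
      calc x * u * x⁻¹ * u⁻¹ = x * (u * x⁻¹ * u⁻¹) := by group
        _ = x * (n * x⁻¹ * n⁻¹) := by rw [h8]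
        _ = _ := by group
    rw [h7]
    exact h.comm_z hx hnS
  have h9 := card_le_of_le hle
  rw [h.card_z, h.cardS'] at h9
  omega

/-- the number of Sylow subgroups is 1 mod 9 -/
theorem card_sylow_mod [Finite K] (h : Sys S U1 U2 z)
    (hN : ∀ V : Subgroup K, V ≤ S → ∀ g : K, (∀ x ∈ V, g * x * g⁻¹ ∈ S) →
      ∃ n : K, (∀ s ∈ S, n * s * n⁻¹ ∈ S) ∧ ∀ x ∈ V, n * x * n⁻¹ = g * x * g⁻¹) :
    Nat.card (Sylow 3 K) % 9 = 1 := by
  classical
  have hfix : ∀ (T : Sylow 3 K) (s : (S : Subgroup K)), s • T = T ↔ (s : K) ∈ T := by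
    intro T s
    have h1 : s • T = (s : K) • T := rfl
    rw [h1, Sylow.smul_eq_iff_mem_normalizer]
    have h2 := (S.isPGroup').inf_normalizer_sylow T
    constructor
    · intro h3
      have h4 : (s : K) ∈ (S : Subgroup K) ⊓ normalizer (T : Set K) := ⟨s.2, h3⟩
      rw [h2] at h4
      exact h4.2
    · intro h3
      exact (le_normalizer (H := (T : Subgroup K))) h3
  apply card_mod_nine (G := (S : Subgroup K)) S
  · intro g
    rw [hfix]; exact g.2
  · intro T hT
    have hstab : Nat.card (MulAction.stabilizer (S : Subgroup K) T) = Nat.card ↥((S : Subgroup K) ⊓ (T : Subgroup K)) := by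
      have h1 : (MulAction.stabilizer (S : Subgroup K) T) = (T : Subgroup K).subgroupOf (S : Subgroup K) := by
        ext s
        rw [MulAction.mem_stabilizer_iff, hfix, mem_subgroupOf]
        rfl
      rw [h1, ← inf_subgroupOf_left]
      exact Nat.card_congr (subgroupOfEquivOfLe inf_le_left).toEquiv
    have := Fintype.ofFinite (S : Subgroup K)
    have := Fintype.ofFinite (MulAction.orbit (S : Subgroup K) T)
    have := Fintype.ofFinite (MulAction.stabilizer (S : Subgroup K) T)
    have horb := MulAction.card_orbit_mul_card_stabilizer_eq_card_group (S : Subgroup K) T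
    rw [← Nat.card_eq_fintype_card, ← Nat.card_eq_fintype_card, ← Nat.card_eq_fintype_card, hstab, h.cardS'] at horb
    have hdvd : Nat.card ↥((S : Subgroup K) ⊓ (T : Subgroup K)) ∣ 3 ^ 3 := by
      have h2 := card_dvd_of_le (inf_le_left : (S : Subgroup K) ⊓ (T : Subgroup K) ≤ S)
      rw [h.cardS'] at h2; exact h2
    have hcT : Nat.card (T : Subgroup K) = 27 := by
      rw [← h.cardS']; exact Nat.card_congr (Sylow.equiv T S).toEquiv
    obtain ⟨k, hk, hk2⟩ := (Nat.dvd_prime_pow Nat.prime_three).1 hdvd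
    rw [hk2] at horb
    interval_cases k
    · omega
    · omega
    · -- order 9
      exfalso
      set V : Subgroup K := (S : Subgroup K) ⊓ (T : Subgroup K) with hV
      have hVS : V ≤ S := inf_le_left
      have hV9 : Nat.card V = 9 := by rw [hk2]; norm_num
      have hTS : (T : Subgroup K) ≤ S := by
        intro t ht
        have h3 : ∀ x ∈ V, t * x * t⁻¹ ∈ V := fun x hx => conj_mem_of_card hcT inf_le_right hV9 ht hx
        obtain ⟨n, hn, hn2⟩ := hN V inf_le_left t (fun x hx => hVS (h3 x hx))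
        have h4 : n⁻¹ * t ∈ V := by
          apply h.centralizer_V inf_le_left hV9
          intro v hv
          have h5 := hn2 v hv
          calc n⁻¹ * t * v = n⁻¹ * (t * v * t⁻¹) * t := by group
            _ = n⁻¹ * (n * v * n⁻¹) * t := by rw [h5]
            _ = v * (n⁻¹ * t) := by group
        have h6 : ∀ s ∈ S, t * s * t⁻¹ ∈ S := by
          intro s hs
          have h7 : t = n * (n⁻¹ * t) := by group
          have h8 : (n⁻¹ * t) * s * (n⁻¹ * t)⁻¹ ∈ S :=
            (S : Subgroup K).mul_mem ((S : Subgroup K).mul_mem (hVS h4) hs) ((S : Subgroup K).inv_mem (hVS h4))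
          have h9 := hn _ h8
          have h10 : n * ((n⁻¹ * t) * s * (n⁻¹ * t)⁻¹) * n⁻¹ = t * s * t⁻¹ := by group
          rwa [h10] at h9
        obtain ⟨m, hm⟩ := (IsPGroup.iff_orderOf.1 T.isPGroup') ⟨t, ht⟩
        refine mem_of_pow (S := S) (n := m) ?_ ?_
        · show t ∈ normalizer ((S : Subgroup K) : Set K)
          rw [mem_normalizer_iff]
          intro s
          refine ⟨fun hs => h6 s hs, fun hs => ?_⟩
          have h11 := h.norm_inv h6 _ hs
          have h12 : t⁻¹ * (t * s * t⁻¹) * t⁻¹⁻¹ = s := by group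
          rwa [h12] at h11
        · rw [← hm]
          exact orderOf_submonoid (⟨t, ht⟩ : (T : Subgroup K))
      apply hT
      apply Sylow.ext
      exact eq_of_le_of_card_ge hTS (by rw [hcT, h.cardS'])
    · -- order 27
      exfalso
      apply hT
      have h3 : (S : Subgroup K) ⊓ (T : Subgroup K) = S := by
        apply eq_of_le_of_card_ge inf_le_left
        rw [h.cardS', hk2]; norm_num
      apply Sylow.ext
      symm
      apply eq_of_le_of_card_ge
      · rw [← h3]; exact inf_le_right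
      · rw [hcT, h.cardS']

theorem contra [Finite K] (h : Sys S U1 U2 z) (hK : commutator K = ⊤)
    (hN : ∀ V : Subgroup K, V ≤ S → ∀ g : K, (∀ x ∈ V, g * x * g⁻¹ ∈ S) →
      ∃ n : K, (∀ s ∈ S, n * s * n⁻¹ ∈ S) ∧ ∀ x ∈ V, n * x * n⁻¹ = g * x * g⁻¹)
    (hcard : Nat.card K = 5616 ∨ Nat.card K = 6048 ∨ Nat.card K = 95040) : False := by
  have h1 := h.card_norm
  have h2 := h.card_norm_ne hK hN
  have h3 := h.card_sylow_mod hN
  have h4 : Nat.card (Sylow 3 K) = (normalizer ((S : Subgroup K) : Set K)).index := Sylow.card_eq_index_normalizer S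
  have h5 := (normalizer ((S : Subgroup K) : Set K)).card_mul_index
  rw [h4] at h3
  generalize (normalizer ((S : Subgroup K) : Set K)).index = n at *
  generalize Nat.card (normalizer ((S : Subgroup K) : Set K)) = m at *
  rcases h1 with h1 | h1 | h1
  · exact h2 h1
  · subst h1
    rcases hcard with h6 | h6 | h6 <;> rw [h6] at h5 <;> omega
  · subst h1
    rcases hcard with h6 | h6 | h6 <;> rw [h6] at h5 <;> omega

end Sys

end Cfsg.Agent.H410.Co1
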